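import Cfsg.Agent.Char.PB

/-! A character computation in the principal block. -/

namespace CF.Sy2.Cc
open Cfsg CF.Char CF.BlockB Finset
open scoped ComplexConjugate

variable {G : Type*} [Group G]

theorem pd [Fintype G] {χ : G → ℂ} (hχ : IsIrrCharacter G χ) {ι : Type*} [Fintype ι]
    (c : ι → ℝ) (x : ι → G) :
    0 ≤ (∑ i, ∑ j, (c i * c j : ℂ) * χ (x i * (x j)⁻¹)).re := by
  obtain ⟨m, hm, h1⟩ := irr_one_eq_nat hχ
  have key : ∀ i j, (Nat.card G : ℂ) * χ (x i * (x j)⁻¹) / m =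
      ∑ k, χ (x i * k) * conj (χ (x j * k)) := by
    intro i j
    have := sum_irr_mul_irr_inv hχ hχ (x i * (x j)⁻¹)
    rw [if_pos rfl, h1] at this
    rw [← this, ← Equiv.sum_comp (Equiv.mulLeft (x i))]
    refine sum_congr rfl fun k _ => ?_
    rw [← irr_inv hχ]; simp [mul_assoc]
  have e : ((Nat.card G / m : ℝ) : ℂ) * ∑ i, ∑ j, (c i * c j : ℂ) * χ (x i * (x j)⁻¹) =
      ((∑ k, ‖∑ i, (c i : ℂ) * χ (x i * k)‖ ^ 2 : ℝ) : ℂ) := by
    rw [← sum_mul_conj_eq_sum_norm_sq]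
    simp only [map_sum, map_mul, Complex.conj_ofReal, sum_mul_sum]
    rw [sum_comm (s := univ) (γ := G), mul_sum]
    refine sum_congr rfl fun i _ => ?_
    rw [sum_comm (s := univ) (γ := G), mul_sum]
    refine sum_congr rfl fun j _ => ?_
    have : ((Nat.card G / m : ℝ) : ℂ) * ((c i * c j : ℂ) * χ (x i * (x j)⁻¹)) =
        (c i * c j : ℂ) * ((Nat.card G : ℂ) * χ (x i * (x j)⁻¹) / m) := by push_cast; ring
    rw [this, key, mul_sum]
    exact sum_congr rfl fun k _ => by ring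
  have e2 := congrArg Complex.re e
  rw [Complex.re_ofReal_mul, Complex.ofReal_re] at e2
  have hp : (0 : ℝ) < Nat.card G / m := by
    have : 0 < Nat.card G := Nat.card_pos
    positivity
  have : 0 ≤ ∑ k, ‖∑ i, (c i : ℂ) * χ (x i * k)‖ ^ 2 := by positivity
  rw [← e2] at this
  exact nonneg_of_mul_nonneg_right this hp |> fun h => h

theorem re_sum_nonneg [Fintype G] {χ : G → ℂ} (hχ : IsIrrCharacter G χ) (D : Subgroup G)
    [Fintype D] : 0 ≤ (∑ w : D, χ w).re := by
  have h := pd hχ (fun _ : D => (1 : ℝ)) (fun w => (w : G))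
  have e : ∑ i : D, ∑ j : D, ((1 : ℝ) * (1 : ℝ) : ℂ) * χ ((i : G) * (j : G)⁻¹) =
      ((Fintype.card D : ℝ) : ℂ) * ∑ w : D, χ w := by
    rw [sum_comm]
    have : ∀ j : D, ∑ i : D, ((1 : ℝ) * (1 : ℝ) : ℂ) * χ ((i : G) * (j : G)⁻¹) = ∑ w : D, χ w := by
      intro j
      rw [← Equiv.sum_comp (Equiv.mulRight j)]
      exact sum_congr rfl fun k _ => by simp
    simp only [this, sum_const, card_univ, nsmul_eq_mul]
    push_cast; rfl
  rw [e, Complex.re_ofReal_mul] at h
  have hp : (0 : ℝ) < Fintype.card D := by exact_mod_cast Fintype.card_pos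
  exact (mul_nonneg_iff_of_pos_left hp).1 h

theorem pelt {p : ℕ} [Finite G] (hp : p.Prime) {D : Subgroup G} (hD : IsPGroup p D) (w : D) :
    ∃ k, orderOf (w : G) = p ^ k := by
  have := Fact.mk hp
  obtain ⟨k, hk⟩ := IsPGroup.iff_orderOf.1 hD w
  exact ⟨k, by rw [Subgroup.orderOf_coe, hk]⟩

theorem orth1 [Finite G] {p : ℕ} {M : Ideal AlgInt} (hM : IsPModular p M) {u y : G}
    (hu : ∃ k, orderOf u = p ^ k) (h1 : u ≠ 1) (hy : ¬ p ∣ orderOf y) :
    ∑ χ ∈ pb M G, (χ : G → ℂ) y * conj ((χ : G → ℂ) u) = 0 := by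
  refine pb_orth hM ?_
  rw [pPart_of_pRegular hM.1 hy, pPart_of_pElement hM.1 hu, isConj_one_right]
  exact h1

theorem cge [Finite G] {p : ℕ} {M : Ideal AlgInt} (hM : IsPModular p M) (D : Subgroup G)
    (hD : IsPGroup p D) : (Nat.card D : ℝ) ≤ ∑ ψ ∈ pb M G, ‖(ψ : G → ℂ) 1‖ ^ 2 := by
  classical
  have := Fintype.ofFinite G
  have n1 : ¬ p ∣ orderOf (1 : G) := by simpa using hM.1.one_lt.ne'
  have e : ∑ ψ ∈ pb M G, (ψ : G → ℂ) 1 * conj (∑ w : D, (ψ : G → ℂ) w) =
      ((∑ ψ ∈ pb M G, ‖(ψ : G → ℂ) 1‖ ^ 2 : ℝ) : ℂ) := by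
    simp only [map_sum, mul_sum]
    rw [sum_comm, sum_eq_single (1 : D), ← sum_mul_conj_eq_sum_norm_sq]
    · rfl
    · intro w _ hw
      exact orth1 hM (pelt hM.1 hD w) (fun h => hw (Subtype.ext h)) n1
    · simp
  have e2 := congrArg Complex.re e
  rw [Complex.ofReal_re, Complex.re_sum] at e2
  rw [← e2]
  refine le_trans ?_ (single_le_sum (f := fun ψ : IrrCharacter G =>
    ((ψ : G → ℂ) 1 * conj (∑ w : D, (ψ : G → ℂ) w)).re) (fun ψ _ => ?_) (oneIrr_mem_pb hM))
  · simp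
  · obtain ⟨m, hm, h1⟩ := irr_one_eq_nat ψ.2
    have := re_sum_nonneg ψ.2 D
    rw [h1, ← Complex.ofReal_natCast, Complex.re_ofReal_mul, Complex.conj_re]
    positivity

theorem cge' [Finite G] {p : ℕ} {M : Ideal AlgInt} (hM : IsPModular p M) {u : G}
    (hu : ∃ k, orderOf u = p ^ k) (D : Subgroup G) (hD : IsPGroup p D)
    (hc : ∀ d ∈ D, u * d = d * u) : (Nat.card D : ℝ) ≤ ∑ χ ∈ pb M G, ‖(χ : G → ℂ) u‖ ^ 2 := by
  have h := sum_pb_section_norm_sq' hM hu 1 (by simpa using hM.1.one_lt.ne')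
  have hle : D ≤ Subgroup.centralizer ({u} : Set G) := fun d hd =>
    Subgroup.mem_centralizer_singleton_iff.2 (hc d hd).symm
  have h2 := cge hM (D.subgroupOf (Subgroup.centralizer ({u} : Set G)))
    (hD.of_equiv (Subgroup.subgroupOfEquivOfLe hle).symm)
  rw [Nat.card_congr (Subgroup.subgroupOfEquivOfLe hle).toEquiv, ← h] at h2
  simpa using h2

theorem fin {ι : Type*} (B : Finset ι) (o : ι) (ho : o ∈ B) (D E : ι → ℝ) (n : ℝ) (hn : 2 ≤ n)
    (hD : ∀ i, 0 < D i) (a : ∑ i ∈ B, E i * D i = 0)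
    (b : ∑ i ∈ B, E i * ((D i + E i) ^ 2 / D i - (n + 1) * E i) = 0)
    (c : 2 * (n + 1) * n ≤ ∑ i ∈ B, E i ^ 2) (d : ∀ i ∈ B, i ≠ o → n * E i ≤ D i)
    (e1 : E o = n) (e2 : D o = 1) : False := by
  classical
  have n0 : 0 < n := by linarith
  have b' : ∑ i ∈ B, (E i ^ 2 - n * (E i ^ 3 / D i)) = (1 - n * (n - 1)) * ∑ i ∈ B, E i ^ 2 := by
    have : ∀ i ∈ B, E i ^ 2 - n * (E i ^ 3 / D i) = (1 - n * (n - 1)) * E i ^ 2 + n * (E i * D i)
        - n * (E i * ((D i + E i) ^ 2 / D i - (n + 1) * E i)) := by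
      intro i _
      have := (hD i).ne'
      field_simp
      ring
    rw [sum_congr rfl this, sum_sub_distrib, sum_add_distrib, ← mul_sum, ← mul_sum, ← mul_sum, a, b]
    ring
  rw [← add_sum_erase B _ ho] at a b'
  have hex : ∃ i ∈ B.erase o, E i * D i < 0 := by
    by_contra! h
    have := sum_nonneg h
    rw [e1, e2] at a
    linarith
  obtain ⟨i, hi, hi0⟩ := hex
  have hpos : 0 < ∑ i ∈ B.erase o, (E i ^ 2 - n * (E i ^ 3 / D i)) := by
    refine sum_pos' (fun j hj => ?_) ⟨i, hi, ?_⟩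
    · have h1 := d j (mem_of_mem_erase hj) (ne_of_mem_erase hj)
      have h2 := hD j
      have : E j ^ 2 - n * (E j ^ 3 / D j) = E j ^ 2 * (D j - n * E j) / D j := by
        field_simp
      rw [this]
      have : 0 ≤ D j - n * E j := by linarith
      positivity
    · have h2 := hD i
      have h3 : E i < 0 := by
        by_contra! h
        have := mul_nonneg h h2.le
        linarith
      have : E i ^ 2 - n * (E i ^ 3 / D i) = E i ^ 2 * (D i - n * E i) / D i := by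
        field_simp
      rw [this]
      have h4 : 0 < D i - n * E i := by nlinarith
      have h5 : 0 < E i ^ 2 := by nlinarith
      positivity
  rw [e1, e2] at b'
  generalize ∑ i ∈ B, E i ^ 2 = S at *
  have h1 : 0 < n * (n - 1) - 1 := by nlinarith
  have h2 := mul_le_mul_of_nonneg_left c h1.le
  have h3 : 0 ≤ n * (n + 1) * ((n - 2) * (n + 1)) := by
    have : 0 ≤ n - 2 := by linarith
    positivity
  nlinarith

theorem conv {W : Type*} [Group W] [Fintype W] [DecidableEq W] (H : W → ℂ) :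
    ∑ t : W, ∑ s : W, (((if t = 1 then (Fintype.card W : ℝ) else 0) - 1 : ℝ) *
      ((if s = 1 then (Fintype.card W : ℝ) else 0) - 1 : ℝ) : ℂ) * H (t * s⁻¹) =
      Fintype.card W * (Fintype.card W * H 1 - ∑ s, H s) := by
  have h1 : ∀ s : W, ∑ t : W, H (t * s⁻¹) = ∑ t, H t := fun s =>
    Equiv.sum_comp (Equiv.mulRight s⁻¹) H
  have h2 : ∑ s : W, H s⁻¹ = ∑ t, H t := Equiv.sum_comp (Equiv.inv W) H
  rw [sum_comm]
  have h3 : ∀ s : W, ∑ t : W, (((if t = 1 then (Fintype.card W : ℝ) else 0) - 1 : ℝ) *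
      ((if s = 1 then (Fintype.card W : ℝ) else 0) - 1 : ℝ) : ℂ) * H (t * s⁻¹) =
      (if s = 1 then (Fintype.card W : ℂ) * (Fintype.card W * H s⁻¹ - ∑ t, H t) else 0) -
        (Fintype.card W * H s⁻¹ - ∑ t, H t) := by
    intro s
    have : ∀ t : W, (((if t = 1 then (Fintype.card W : ℝ) else 0) - 1 : ℝ) *
        ((if s = 1 then (Fintype.card W : ℝ) else 0) - 1 : ℝ) : ℂ) * H (t * s⁻¹) =
        ((if s = 1 then (Fintype.card W : ℂ) else 0) - 1) *
          ((if t = 1 then (Fintype.card W : ℂ) * H (t * s⁻¹) else 0) - H (t * s⁻¹)) := by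
      intro t
      split_ifs <;> push_cast <;> ring
    rw [sum_congr rfl fun t _ => this t, ← mul_sum, sum_sub_distrib, sum_ite_eq', h1]
    split_ifs <;> simp [sub_mul] at *
  rw [sum_congr rfl fun s _ => h3 s, sum_sub_distrib, sum_ite_eq', sum_sub_distrib, ← mul_sum, h2]
  simp

/-- the sum of a function over the non-identity elements -/
noncomputable def ep (W : Subgroup G) [Fintype W] (χ : G → ℂ) : ℂ := ∑ t : W, χ t - χ 1

theorem ep_eq (W : Subgroup G) [Fintype W] [DecidableEq W] (χ : G → ℂ) :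
    ep W χ = ∑ t ∈ (univ : Finset W).erase 1, χ t := by
  rw [ep, ← add_sum_erase _ _ (mem_univ (1 : W))]; simp

theorem conj_ep [Finite G] (W : Subgroup G) [Fintype W] {χ : G → ℂ} (hχ : IsIrrCharacter G χ) :
    conj (ep W χ) = ep W χ := by
  rw [ep, map_sub, map_sum, ← irr_inv hχ, inv_one, ← Equiv.sum_comp (Equiv.inv W)]
  congr 1
  exact sum_congr rfl fun t _ => by rw [← irr_inv hχ]; simp

theorem ep_re [Finite G] (W : Subgroup G) [Fintype W] {χ : G → ℂ} (hχ : IsIrrCharacter G χ) :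
    ep W χ = ((ep W χ).re : ℂ) := (Complex.conj_eq_iff_re.1 (conj_ep W hχ)).symm

section
variable [Fintype G] {W : Subgroup G} [Fintype W] {χ : G → ℂ} (hχ : IsIrrCharacter G χ)
  {g : G} {e : W →* W}
  (h : ∀ t b : W, t ≠ 1 → χ (t * ((e b : W) : G)⁻¹ * (g * b * g⁻¹)) = χ t)
include h

theorem sumH : ∑ t : W, ∑ b : W, χ (t * ((e b : W) : G)⁻¹ * (g * b * g⁻¹)) =
    ∑ b : W, χ (((e b : W) : G)⁻¹ * (g * b * g⁻¹)) + Fintype.card W * ep W χ := by
  classical
  rw [← add_sum_erase _ _ (mem_univ (1 : W)), ep_eq, mul_sum]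
  congr 1
  · simp
  · refine sum_congr rfl fun t ht => ?_
    rw [sum_congr rfl fun b _ => h t b (ne_of_mem_erase ht)]
    simp

theorem sumA : ∑ b : W, χ (((e b : W) : G)⁻¹ * (g * b * g⁻¹)) =
    ∑ a : W, ∑ b : W, χ (a * (g * b * g⁻¹)) - Fintype.card W * ep W χ := by
  rw [eq_sub_iff_add_eq, ← sumH h, sum_comm, sum_comm (f := fun (a b : W) => χ (a * (g * b * g⁻¹)))]
  refine sum_congr rfl fun b _ => ?_
  rw [← Equiv.sum_comp (Equiv.mulRight (e b))]
  exact sum_congr rfl fun t _ => by simp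

include hχ in
theorem posA (comm : ∀ a ∈ W, ∀ b ∈ W, a * b = b * a) :
    Fintype.card W * (ep W χ).re ≤
      ((Fintype.card W : ℝ) - 1) * (∑ b : W, χ (((e b : W) : G)⁻¹ * (g * b * g⁻¹))).re := by
  classical
  have h0 := pd hχ (fun i : W × W => (if i.1 = 1 then (Fintype.card W : ℝ) else 0) - 1)
    (fun i => (i.1 : G) * ((e i.2 : W) : G)⁻¹ * (g * i.2 * g⁻¹))
  set H : W → ℂ := fun t => ∑ b : W, χ (t * ((e b : W) : G)⁻¹ * (g * b * g⁻¹)) with hH
  have k : ∀ t s b' : W, ∑ b : W, χ ((t : G) * ((e b : W) : G)⁻¹ * (g * b * g⁻¹) *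
      ((s : G) * ((e b' : W) : G)⁻¹ * (g * b' * g⁻¹))⁻¹) = H (t * s⁻¹) := by
    intro t s b'
    rw [hH, ← Equiv.sum_comp (Equiv.mulRight b')]
    refine sum_congr rfl fun b _ => ?_
    have c1 : ((e b' * s⁻¹ * (t * (e (b * b'))⁻¹) : W) : G) = ((t * s⁻¹ * (e b)⁻¹ : W) : G) := by
      have : IsMulCommutative W := ⟨⟨fun a b => Subtype.ext (comm a a.2 b b.2)⟩⟩
      let _ : CommGroup W := IsMulCommutative.instCommGroup
      congr 1
      rw [map_mul, mul_inv, mul_comm (e b)⁻¹]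
      simp only [mul_comm, mul_left_comm, mul_assoc]
      simp
    push_cast at c1 ⊢
    rw [← c1, ← classFun_conj (irr_isClassFunction hχ) _ ((e b' : W) * (s : G)⁻¹)]
    congr 1
    simp only [Equiv.coe_mulRight, Subgroup.coe_mul]
    group
  have e1 : ∑ i : W × W, ∑ j : W × W,
      (((if i.1 = 1 then (Fintype.card W : ℝ) else 0) - 1 : ℝ) *
        ((if j.1 = 1 then (Fintype.card W : ℝ) else 0) - 1 : ℝ) : ℂ) *
      χ ((i.1 : G) * ((e i.2 : W) : G)⁻¹ * (g * i.2 * g⁻¹) *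
        ((j.1 : G) * ((e j.2 : W) : G)⁻¹ * (g * j.2 * g⁻¹))⁻¹) =
      Fintype.card W * (Fintype.card W * (Fintype.card W * H 1 - ∑ s, H s)) := by
    rw [← conv, mul_sum, Fintype.sum_prod_type]
    refine sum_congr rfl fun t _ => ?_
    rw [sum_comm, Fintype.sum_prod_type, mul_sum]
    refine sum_congr rfl fun s _ => ?_
    rw [← nsmul_eq_mul, ← card_univ, ← sum_const]
    refine sum_congr rfl fun b' _ => ?_
    rw [← k t s b', mul_sum]
  rw [e1, hH, sumH h] at h0
  simp only [OneMemClass.coe_one, one_mul] at h0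
  generalize ∑ b : W, χ (((e b : W) : G)⁻¹ * (g * b * g⁻¹)) = A at *
  have hp : (0 : ℝ) < Fintype.card W := by exact_mod_cast Fintype.card_pos
  simp only [Complex.mul_re, Complex.natCast_re, Complex.natCast_im, zero_mul, sub_zero,
    Complex.sub_re, Complex.add_re] at h0
  have := (mul_nonneg_iff_of_pos_left hp).1 ((mul_nonneg_iff_of_pos_left hp).1 h0)
  linarith

end

theorem sumG [Fintype G] (W : Subgroup G) [Fintype W] {χ : G → ℂ} (hχ : IsIrrCharacter G χ) :
    ∑ g : G, (∑ a : W, ∑ b : W, χ (a * (g * b * g⁻¹)) - Fintype.card W * ep W χ) =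
      Nat.card G * ((χ 1 + ep W χ) ^ 2 / χ 1 - Fintype.card W * ep W χ) := by
  rw [sum_sub_distrib, sum_const, card_univ, nsmul_eq_mul, mul_sub, ← Nat.card_eq_fintype_card]
  congr 1
  rw [sum_comm]
  have : ∀ a : W, ∑ g : G, ∑ b : W, χ (a * (g * b * g⁻¹)) =
      ∑ b : W, Nat.card G * (χ a * χ b) / χ 1 := by
    intro a
    rw [sum_comm]
    refine sum_congr rfl fun b _ => ?_
    rw [sum_congr rfl fun g _ => classFun_mul_comm (irr_isClassFunction hχ) a (g * b * g⁻¹),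
      sum_irr_conj_mul hχ]
    ring
  rw [sum_congr rfl fun a _ => this a, ep, add_sub_cancel, sq, sum_mul_sum]
  simp only [mul_sum, sum_div]
  exact sum_congr rfl fun a _ => sum_congr rfl fun b _ => by ring

end CF.Sy2.Cc

namespace CF.Sy2
open Cfsg CF.Char CF.BlockB Finset CF.Sy2.Cc
open scoped ComplexConjugate

theorem chr {G : Type*} [Group G] [Finite G] [IsSimpleGroup G] {p : ℕ} (hp : p.Prime)
    {M : Ideal Cfsg.AlgInt} (hM : Cfsg.IsPModular p M) (W : Subgroup G) (hW : IsPGroup p W)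
    (comm : ∀ a ∈ W, ∀ b ∈ W, a * b = b * a) (q3 : 3 ≤ Nat.card W)
    (hI : ∀ g : G, ∃ e : W →* W,
      (∀ b : W, ¬ p ∣ orderOf (((e b : W) : G)⁻¹ * (g * b * g⁻¹))) ∧
      ∀ t b : W, t ≠ 1 → ∀ χ ∈ Cfsg.principalBlock M G,
        (χ : G → ℂ) (t * ((e b : W) : G)⁻¹ * (g * b * g⁻¹)) = (χ : G → ℂ) t)
    (hS : ∀ u : W, u ≠ 1 → (∃ v : W, v ≠ u ∧ IsConj (u : G) v) ∨
      ∃ D : Subgroup G, IsPGroup p D ∧ (∀ d ∈ D, (u : G) * d = d * u) ∧
        2 * Nat.card W ≤ Nat.card D) :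
    False := by
  classical
  have := Fintype.ofFinite G
  have := Fintype.ofFinite W
  choose e he1 he2 using hI
  rw [Nat.card_eq_fintype_card] at q3 hS
  set q := Fintype.card W with hq
  have q3' : (3 : ℝ) ≤ q := by exact_mod_cast q3
  have gp : (0 : ℝ) < Nat.card G := by exact_mod_cast Nat.card_pos
  have hd : ∀ χ : IrrCharacter G, 0 < ((χ : G → ℂ) 1).re ∧
      (χ : G → ℂ) 1 = (((χ : G → ℂ) 1).re : ℂ) := fun χ => by
    obtain ⟨m, hm, h1⟩ := irr_one_eq_nat χ.2
    rw [h1]; simpa using hm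
  have n1 : ¬ p ∣ orderOf (1 : G) := by simpa using hp.one_lt.ne'
  have ne1 : ∀ u ∈ (univ : Finset W).erase 1, (u : G) ≠ 1 := fun u hu h =>
    ne_of_mem_erase hu (Subtype.ext h)
  have o1 : ∀ y : G, ¬ p ∣ orderOf y → ∑ χ ∈ pb M G, ep W χ * (χ : G → ℂ) y = 0 := by
    intro y hy
    have : ∀ χ ∈ pb M G, ep W χ * (χ : G → ℂ) y =
        ∑ u ∈ (univ : Finset W).erase 1, (χ : G → ℂ) y * conj ((χ : G → ℂ) u) := fun χ _ => by
      rw [← conj_ep W χ.2, ep_eq, map_sum, mul_comm, mul_sum]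
    rw [sum_congr rfl this, sum_comm]
    exact sum_eq_zero fun u hu => orth1 hM (pelt hp hW u) (ne1 u hu) hy
  have hA : ∀ χ ∈ pb M G, ∑ g : G, ∑ b : W, (χ : G → ℂ) (((e g b : W) : G)⁻¹ * (g * b * g⁻¹)) =
      ((Nat.card G * ((((χ : G → ℂ) 1).re + (ep W χ).re) ^ 2 / ((χ : G → ℂ) 1).re -
        q * (ep W χ).re) : ℝ) : ℂ) := by
    intro χ hχ
    rw [sum_congr rfl fun g _ => sumA fun t b ht => he2 g t b ht χ (mem_pb.1 hχ), sumG W χ.2]
    push_cast
    rw [← ep_re W χ.2, ← (hd χ).2]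
  refine fin (pb M G) (oneIrr G) (oneIrr_mem_pb hM) (fun χ => ((χ : G → ℂ) 1).re)
    (fun χ => (ep W χ).re) (q - 1) (by linarith) (fun χ => (hd χ).1) ?_ ?_ ?_ ?_ ?_ (by simp)
  · have := o1 1 n1
    rw [sum_congr rfl fun χ _ => by rw [ep_re W χ.2, (hd χ).2]] at this
    exact_mod_cast this
  · have h0 : ∑ χ ∈ pb M G, ep W χ *
        ∑ g : G, ∑ b : W, (χ : G → ℂ) (((e g b : W) : G)⁻¹ * (g * b * g⁻¹)) = 0 := by
      simp only [mul_sum]
      rw [sum_comm]
      refine sum_eq_zero fun g _ => ?_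
      rw [sum_comm]
      exact sum_eq_zero fun b _ => o1 _ (he1 g b)
    rw [sum_congr rfl fun χ hχ => by rw [hA χ hχ, ep_re W χ.2]] at h0
    simp only [Complex.ofReal_re] at h0
    have h1 : ∑ χ ∈ pb M G, (ep W χ).re * (Nat.card G * ((((χ : G → ℂ) 1).re + (ep W χ).re) ^ 2 /
      ((χ : G → ℂ) 1).re - q * (ep W χ).re)) = 0 := by exact_mod_cast h0
    simp only [mul_left_comm _ (Nat.card G : ℝ), ← mul_sum] at h1
    simpa using (mul_eq_zero.1 h1).resolve_left gp.ne'
  · let c : G → G → ℂ := fun u v => ∑ χ ∈ pb M G, (χ : G → ℂ) u * conj ((χ : G → ℂ) v)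
    have h0 : ((∑ χ ∈ pb M G, (ep W χ).re ^ 2 : ℝ) : ℂ) =
        ∑ u ∈ (univ : Finset W).erase 1, ∑ v ∈ (univ : Finset W).erase 1, c u v := by
      push_cast
      rw [sum_congr rfl fun (χ : IrrCharacter G) _ => show ((ep W χ).re : ℂ) ^ 2 =
        ∑ u ∈ (univ : Finset W).erase 1, ∑ v ∈ (univ : Finset W).erase 1,
          (χ : G → ℂ) u * conj ((χ : G → ℂ) v) by
        rw [← ep_re W χ.2, sq, ← sum_mul_sum, ← map_sum, ← ep_eq, conj_ep W χ.2], sum_comm]
      exact sum_congr rfl fun u _ => sum_comm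
    have c1 : ∀ u v : G, IsConj u v → (c u v).re = ∑ χ ∈ pb M G, ‖(χ : G → ℂ) u‖ ^ 2 := by
      intro u v huv
      obtain ⟨k, rfl⟩ := isConj_iff.1 huv
      simp only [c, fun χ : IrrCharacter G => classFun_conj (irr_isClassFunction χ.2) u k]
      rw [sum_mul_conj_eq_sum_norm_sq, Complex.ofReal_re]
    have c0 : ∀ u v : W, 0 ≤ (c u v).re := by
      intro u v
      by_cases huv : IsConj (u : G) v
      · rw [c1 _ _ huv]; positivity
      · have : c u v = 0 := pb_orth hM (by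
          rwa [pPart_of_pElement hp (pelt hp hW u), pPart_of_pElement hp (pelt hp hW v)])
        simp [this]
    have h1 := congrArg Complex.re h0
    rw [Complex.ofReal_re, Complex.re_sum] at h1
    rw [h1]
    have h2 : ∀ u ∈ (univ : Finset W).erase 1, 2 * (q : ℝ) ≤
        (∑ v ∈ (univ : Finset W).erase 1, c u v).re := by
      intro u hu
      rw [Complex.re_sum]
      rcases hS u (ne_of_mem_erase hu) with ⟨v, hv, hc⟩ | ⟨D, hD, hc, hle⟩
      · have hv1 : v ∈ (univ : Finset W).erase 1 := by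
          refine mem_erase.2 ⟨?_, mem_univ _⟩
          rintro rfl
          exact ne1 u hu (isConj_one_left.1 hc)
        have h3 := sum_le_sum_of_subset_of_nonneg (s := {v, u}) (t := univ.erase 1)
          (f := fun v : W => (c u v).re) (by
            intro x hx
            rcases mem_insert.1 hx with rfl | hx
            · exact hv1
            · rw [mem_singleton.1 hx]; exact hu) fun v _ _ => c0 u v
        rw [sum_pair hv, c1 _ _ hc, c1 _ _ (IsConj.refl _)] at h3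
        have h4 := cge' hM (pelt hp hW u) W hW fun d hd => comm _ u.2 d hd
        rw [Nat.card_eq_fintype_card] at h4
        linarith
      · have h3 := single_le_sum (f := fun v : W => (c u v).re) (fun v _ => c0 u v) hu
        simp only [c1 _ _ (IsConj.refl _)] at h3
        have h4 := cge' hM (pelt hp hW u) D hD hc
        have h5 : 2 * (q : ℝ) ≤ Nat.card D := by exact_mod_cast hle
        linarith
    have h3 := card_nsmul_le_sum _ _ _ h2
    rw [card_erase_of_mem (mem_univ _), card_univ, nsmul_eq_mul, Nat.cast_sub (by omega)] at h3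
    push_cast at h3
    linarith
  · intro χ hχ h1
    have h2 : ∀ g : G, q * (ep W χ).re ≤ ((q : ℝ) - 1) *
        (∑ b : W, (χ : G → ℂ) (((e g b : W) : G)⁻¹ * (g * b * g⁻¹))).re := fun g =>
      posA χ.2 (fun t b ht => he2 g t b ht χ (mem_pb.1 hχ)) comm
    have h3 := sum_le_sum fun g (_ : g ∈ univ) => h2 g
    rw [← mul_sum (a := (q : ℝ) - 1), ← Complex.re_sum, hA χ hχ, Complex.ofReal_re, sum_const,
      card_univ, nsmul_eq_mul, ← Nat.card_eq_fintype_card, mul_left_comm ((q : ℝ) - 1)] at h3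
    have h4 := le_of_mul_le_mul_left h3 gp
    have hk := charKer_eq_bot_of_simple χ.2 fun h => h1 (Subtype.ext h)
    have h5 : (ep W χ).re < ((q : ℝ) - 1) * ((χ : G → ℂ) 1).re := by
      have hne : ((univ : Finset W).erase 1).Nonempty := by
        rw [← card_pos, card_erase_of_mem (mem_univ _), card_univ]; omega
      have := sum_lt_sum_of_nonempty hne (f := fun t : W => ((χ : G → ℂ) t).re)
        (g := fun _ => ((χ : G → ℂ) 1).re) fun t ht => by
          refine lt_of_le_of_ne (char_re_le (irr_isCharacter χ.2) _) fun h => ne1 t ht ?_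
          rw [← Subgroup.mem_bot, ← hk, mem_charKer_iff (irr_isCharacter χ.2)]
          exact char_eq_one_of_re (irr_isCharacter χ.2) h
      rw [sum_const, card_erase_of_mem (mem_univ _), card_univ, nsmul_eq_mul,
        Nat.cast_sub (by omega)] at this
      rw [ep_eq, Complex.re_sum]
      simpa using this
    have h6 := (hd χ).1
    generalize ((χ : G → ℂ) 1).re = d at *
    generalize (ep W χ).re = E at *
    have h7 : 0 ≤ (((q : ℝ) - 1) * d - E) * (d - ((q : ℝ) - 1) * E) := by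
      have : (((q : ℝ) - 1) * d - E) * (d - ((q : ℝ) - 1) * E) =
          d * (((q : ℝ) - 1) * ((d + E) ^ 2 / d - q * E) - q * E) := by
        field_simp
        ring
      rw [this]
      exact mul_nonneg h6.le (by linarith)
    have := (mul_nonneg_iff_of_pos_left (by linarith)).1 h7
    linarith
  · simp [ep, hq]

end CF.Sy2
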