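import Cfsg.Agent.Sy2.B
import Cfsg.Agent.Sy2.C
import Cfsg.Agent.Hyp.ZStarProof

/-! A finite group in which any two Sylow `p`-subgroups generate a `p`-solvable group is
`p`-solvable. -/

set_option autoImplicit false
set_option linter.unusedSectionVars false

namespace CF.Sy2
open Subgroup Cfsg CF.Solv CF.BlockB
open scoped Pointwise

universe u
variable {p : ℕ} [hp : Fact p.Prime] {G : Type u} [Group G] [Finite G]

theorem Hy.not_cen (H : Hy p G) {x : G} (x1 : x ≠ 1) (h : ∀ g, g * x = x * g) : False :=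
  H.cen x x1 (eq_top_iff.2 fun g _ => mem_centralizer_singleton_iff.2 (h g))

theorem Hy.iso (H : Hy p G) [IsSimpleGroup G] (P : Sylow p G) (e : Wp P = P) {u : G}
    (hu : u ∈ Wp P) (u1 : u ≠ 1) (h : ∀ g, g⁻¹ * u * g ∈ Wp P → g⁻¹ * u * g = u) : False := by
  letI : CommGroup (Wp P) := { (inferInstance : Group (Wp P)) with
    mul_comm := fun a b => Subtype.ext (H.Wcomm P a a.2 b b.2) }
  have ou : orderOf u = p := orderOf_eq_prime (H.Wpow P u hu) u1
  have key : ∀ (k : ℕ) (g : G), g⁻¹ * u ^ k * g ∈ Wp P → g⁻¹ * u ^ k * g = u ^ k := by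
    intro k g hg
    have c : ∀ n : ℕ, g⁻¹ * u ^ n * g = (g⁻¹ * u * g) ^ n := fun n => by
      simpa using (conj_pow (a := g⁻¹) (b := u) (i := n)).symm
    by_cases d : p ∣ k
    · obtain ⟨j, rfl⟩ := d
      rw [pow_mul, H.Wpow P u hu]; simp
    · obtain ⟨m, hm⟩ := exists_pow_eq_self_of_coprime (x := u) (n := k)
        (by rw [ou]; exact ((hp.out.coprime_iff_not_dvd).2 d).symm)
      have : g⁻¹ * u * g ∈ Wp P := by
        have := pow_mem hg m
        rwa [c k, ← pow_mul, ← c, pow_mul, hm] at this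
      rw [c, h g this]
  have t := MonoidHom.transfer_eq_pow (MonoidHom.id (Wp P)) u key
  rcases IsSimpleGroup.eq_bot_or_eq_top_of_normal (MonoidHom.transfer (MonoidHom.id (Wp P))).ker
    inferInstance with k | k
  · refine H.not_cen u1 fun g => (MonoidHom.ker_eq_bot_iff _).1 k ?_
    rw [map_mul, map_mul, mul_comm]
  · have : MonoidHom.transfer (MonoidHom.id (Wp P)) u = 1 := MonoidHom.mem_ker.1 (k ▸ mem_top u)
    rw [t] at this
    have h2 : u ^ (Wp P).index = 1 := congrArg Subtype.val this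
    rw [← orderOf_dvd_iff_pow_eq_one, ou, e] at h2
    exact P.not_dvd_index h2

theorem Hy.hS (H : Hy p G) [IsSimpleGroup G] (P : Sylow p G) (u : Wp P) (u1 : u ≠ 1) :
    (∃ v : Wp P, v ≠ u ∧ IsConj (u : G) v) ∨ ∃ D : Subgroup G, IsPGroup p D ∧
      (∀ d ∈ D, (u : G) * d = d * u) ∧ 2 * Nat.card (Wp P) ≤ Nat.card D := by
  by_cases h : ∃ v : Wp P, v ≠ u ∧ IsConj (u : G) v
  · exact Or.inl h
  have h' : ∀ g : G, g⁻¹ * u * g ∈ Wp P → g⁻¹ * u * g = u := fun g hg => by
    by_contra n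
    exact h ⟨⟨_, hg⟩, fun e => n (congrArg Subtype.val e), isConj_iff.2 ⟨g⁻¹, by simp⟩⟩
  refine Or.inr ⟨P, P.isPGroup', fun d hd => ?_, ?_⟩
  · have := Wp_conj u.2 d⁻¹
    rw [Sylow.smul_eq_iff_mem_normalizer.2 (le_normalizer (inv_mem hd)), inv_inv] at this
    have := h' d this
    calc (u : G) * d = d * (d⁻¹ * u * d) := by group
      _ = d * u := by rw [this]
  · obtain ⟨k, hk⟩ := card_dvd_of_le (Wp_le P)
    have k0 : k ≠ 0 := by rintro rfl; exact Nat.card_pos.ne' hk
    have k1 : k ≠ 1 := by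
      rintro rfl
      exact H.iso P (eq_of_le_of_card_ge (Wp_le P) (by omega)) u.2
        (fun e => u1 (Subtype.ext e)) h'
    rw [hk, mul_comm]
    exact Nat.mul_le_mul_left _ (by omega)

theorem Hy.q3 (H : Hy p G) [IsSimpleGroup G] (hd : p ∣ Nat.card G) (P : Sylow p G) :
    3 ≤ Nat.card (Wp P) := by
  by_contra! hq
  have eq2 : ∀ a ∈ Wp P, ∀ b ∈ Wp P, a ≠ 1 → b ≠ 1 → a = b := fun a ha b hb a1 b1 => by
    by_contra n
    classical
    have := Fintype.ofFinite (Wp P)
    have h3 := Finset.card_le_univ ({1, ⟨a, ha⟩, ⟨b, hb⟩} : Finset (Wp P))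
    rw [Finset.card_eq_three.2 ⟨_, _, _, fun e => a1 (congrArg Subtype.val e).symm,
      fun e => b1 (congrArg Subtype.val e).symm, fun e => n (congrArg Subtype.val e), rfl⟩,
      ← Nat.card_eq_fintype_card] at h3
    omega
  haveI : Nontrivial (P : Subgroup G) := (nontrivial_iff_ne_bot _).2 (P.ne_bot_of_dvd_card hd)
  haveI := P.isPGroup'.center_nontrivial
  obtain ⟨k, hk⟩ := IsPGroup.iff_card.1 (P.isPGroup'.to_subgroup (center (P : Subgroup G)))
  have k0 : k ≠ 0 := by
    rintro rfl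
    exact Finite.one_lt_card.ne' hk
  obtain ⟨z, hz⟩ := exists_prime_orderOf_dvd_card' (G := center (P : Subgroup G)) p
    (hk ▸ dvd_pow_self p k0)
  rw [← Subgroup.orderOf_coe, ← Subgroup.orderOf_coe] at hz
  have zc : Zc p ((z : (P : Subgroup G)) : G) := ⟨orderOf_dvd_iff_pow_eq_one.1 hz.dvd, P, fun s hs =>
    congrArg Subtype.val (mem_center_iff.1 z.2 ⟨s, hs⟩)⟩
  have zW := mem_Wp (z : (P : Subgroup G)).2 zc
  generalize ((z : (P : Subgroup G)) : G) = x at hz zc zW
  have p2 : p = 2 := by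
    have h1 := Nat.le_of_dvd Nat.card_pos (hz ▸ orderOf_dvd_natCard _ zW)
    have := hp.out.two_le
    omega
  have x1 : x ≠ 1 := by rintro rfl; exact hp.out.one_lt.ne (by simpa using hz)
  obtain ⟨N, hN, ho, hc⟩ := CF.Hyp.zstar (u := x) (hz.trans p2) fun g hg => by
    obtain ⟨Q, hQ, c⟩ := zc.ext (pz (zc.conj g).1) (fun d hd => by
      obtain ⟨i, rfl⟩ := mem_zpowers_iff.1 hd
      exact (Commute.zpow_right hg i).eq.symm)
    obtain ⟨h, rfl⟩ := MulAction.exists_smul_eq G P Q
    have m1 := Wp_conj (mem_Wp (mem_syl zc.1 c) zc) h⁻¹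
    have m2 := Wp_conj (mem_Wp (hQ (mem_zpowers _)) (zc.conj g)) h⁻¹
    rw [inv_smul_smul] at m1 m2
    have := eq2 _ m2 _ m1 (fun e => x1 (conj_eq_one_iff.1 (conj_eq_one_iff.1 e)))
      fun e => x1 (conj_eq_one_iff.1 e)
    simpa using this
  rcases IsSimpleGroup.eq_bot_or_eq_top_of_normal N hN with rfl | rfl
  · refine H.not_cen x1 fun g => ?_
    have := mem_bot.1 (hc g)
    rw [mul_inv_eq_one, mul_inv_eq_iff_eq_mul] at this
    exact this.symm
  · rw [card_top] at ho
    exact (Nat.not_even_iff_odd.2 ho) (even_iff_two_dvd.2 (p2 ▸ hd))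

theorem Hy.false (H : Hy p G) [IsSimpleGroup G] (hd : p ∣ Nat.card G) : False := by
  obtain ⟨M, hM⟩ := exists_isPModular hp.out
  obtain ⟨P⟩ : Nonempty (Sylow p G) := inferInstance
  refine chr hp.out hM (Wp P) (P.isPGroup'.to_le (Wp_le P)) (H.Wcomm P) (H.q3 hd P)
    (fun g => ?_) (H.hS P)
  obtain ⟨e, he⟩ := H.exists_hom P g
  refine ⟨e, fun b => Oc_reg (he b), fun t b t1 χ hχ => ?_⟩
  obtain ⟨y, v, hv, e2⟩ := H.step4 (e b).2 (Wp_conj b.2 g) (Oc_reg (he b)) t.2
    fun e => t1 (Subtype.ext e)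
  rw [e2, CF.Char.irr_isClassFunction χ.2]
  exact CF.Char.pb_apply_mul_centralizerPPrimeCore hM (pel_of_mem P.isPGroup' (Wp_le P t.2)) hv hχ

/-- Any two Sylow `p`-subgroups generate a `p`-solvable subgroup. -/
def PH (p : ℕ) (G : Type u) [Group G] : Prop :=
  ∀ P Q : Sylow p G, IsPSolvable p ((P : Subgroup G) ⊔ Q : Subgroup G)

theorem PH.sub (h : PH p G) (L : Subgroup G) : PH p L := fun P Q => by
  obtain ⟨P', hP⟩ := (P.isPGroup'.map L.subtype).exists_le_sylow
  obtain ⟨Q', hQ⟩ := (Q.isPGroup'.map L.subtype).exists_le_sylow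
  have le : ((P : Subgroup L) ⊔ Q).map L.subtype ≤ (P' : Subgroup G) ⊔ Q' := by
    rw [Subgroup.map_sup]; exact sup_le_sup hP hQ
  exact isPSolvable_of_injective (h P' Q') (f := (inclusion le).comp (L.subtype.subgroupMap _))
    fun a b e => by
      have := congrArg Subtype.val e
      exact Subtype.ext (Subtype.ext this)

theorem PH.quot (h : PH p G) (N : Subgroup G) [N.Normal] : PH p (G ⧸ N) := fun P Q => by
  obtain ⟨P, rfl⟩ := Sylow.mapSurjective_surjective (QuotientGroup.mk'_surjective N) p P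
  obtain ⟨Q, rfl⟩ := Sylow.mapSurjective_surjective (QuotientGroup.mk'_surjective N) p Q
  rw [Sylow.coe_mapSurjective, Sylow.coe_mapSurjective, ← Subgroup.map_sup]
  exact isPSolvable_of_surjective (h P Q) ((QuotientGroup.mk' N).subgroupMap_surjective _)

theorem main (n : ℕ) : ∀ (G : Type u) [Group G] [Finite G], Nat.card G = n → PH p G →
    IsPSolvable p G := by
  induction n using Nat.strong_induction_on with
  | _ n ih =>
    intro G _ _ hn h
    have sub : ∀ L : Subgroup G, L ≠ ⊤ → IsPSolvable p L := fun L hL =>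
      ih _ (hn ▸ CF.Char.card_lt_of_ne_top hL) L rfl (h.sub L)
    by_contra ns
    rcases subsingleton_or_nontrivial G with h0 | h0
    · exact ns (isPSolvable_of_isSolvable p)
    haveI : IsSimpleGroup G := ⟨fun N hN => by
      by_contra! k
      exact ns (isPSolvable_of_normal_of_quotient N (sub N k.2)
        (ih _ (hn ▸ CF.Char.card_quotient_lt N k.1) _ rfl (h.quot N)))⟩
    refine Hy.false (p := p) ⟨fun P Q e => ns ?_, sub, fun x x1 e => ns ?_⟩ ?_
    · have := h P Q
      rw [e] at this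
      exact isPSolvable_of_surjective this (f := (⊤ : Subgroup G).subtype) fun g => ⟨⟨g, trivial⟩, rfl⟩
    · have hx : x ∈ center G := mem_center_iff.2 fun g =>
        mem_centralizer_singleton_iff.1 (e ▸ mem_top g)
      have c : center G = ⊤ := (IsSimpleGroup.eq_bot_or_eq_top_of_normal _ inferInstance).resolve_left
        fun b => x1 (mem_bot.1 (b ▸ hx))
      haveI := isSolvable_of_comm fun a b : G => mem_center_iff.1 (c ▸ mem_top b) a
      exact isPSolvable_of_isSolvable p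
    · by_contra d
      exact ns (isPSolvable_iff_isPiSep.2 (isPiSep_of_piNum (Or.inr
        ((piNum_compl_singleton_iff hp.out).2 ((hp.out.coprime_iff_not_dvd).2 d).symm))))

end CF.Sy2
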