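import Cfsg.Agent.Solv.PiSep
import Cfsg.Agent.BlockB.PPart

/-! Elementwise lemmas on `p`-solvable groups modulo the `p'`-core. -/

set_option autoImplicit false
set_option linter.unusedSectionVars false

namespace CF.Sy2
open Subgroup Cfsg CF.Solv CF.BlockB

variable {p : ℕ} [hp : Fact p.Prime] {H : Type*} [Group H] [Finite H]

theorem eq_one_of {x : H} {k : ℕ} (h : x ^ p ^ k = 1) (h' : ¬ p ∣ orderOf x) : x = 1 := by
  obtain ⟨j, -, hj⟩ := (Nat.dvd_prime_pow hp.out).1 (orderOf_dvd_of_pow_eq_one h)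
  rcases j with _ | j
  · simpa using hj
  · exact absurd (hj ▸ dvd_pow_self p j.succ_ne_zero) h'

theorem eq_one_of_mem {P : Subgroup H} (hP : IsPGroup p P) {x : H} (hx : x ∈ P)
    (h' : ¬ p ∣ orderOf x) : x = 1 := by
  obtain ⟨k, hk⟩ := hP ⟨x, hx⟩
  exact eq_one_of (k := k) (congrArg Subtype.val hk) h'

theorem reg_map {X : Type*} [Group X] (f : H →* X) {x : H} (h : ¬ p ∣ orderOf x) :
    ¬ p ∣ orderOf (f x) := fun d => h (d.trans (orderOf_map_dvd f x))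

theorem reg_core {y : H} (hy : y ∈ pPrimeCore p H) : ¬ p ∣ orderOf y := fun d =>
  not_dvd_card_pPrimeCore (G := H) (d.trans (orderOf_dvd_natCard _ hy))

theorem pel_of_mem {P : Subgroup H} (hP : IsPGroup p P) {x : H} (hx : x ∈ P) :
    ∃ k : ℕ, orderOf x = p ^ k := by
  obtain ⟨k, hk⟩ := IsPGroup.iff_orderOf.1 hP ⟨x, hx⟩
  exact ⟨k, by rw [← hk, ← Subgroup.orderOf_coe]⟩

/-- The quotient map by the `p'`-core. -/
abbrev pq (p : ℕ) (H : Type*) [Group H] : H →* H ⧸ pPrimeCore p H := QuotientGroup.mk' _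

theorem pq_eq {a b : H} : pq p H a = pq p H b ↔ a⁻¹ * b ∈ pPrimeCore p H := QuotientGroup.eq

theorem pq_one {a : H} : pq p H a = 1 ↔ a ∈ pPrimeCore p H := QuotientGroup.eq_one_iff a

theorem cenR (hs : IsPSolvable p H) {x : H ⧸ pPrimeCore p H}
    (h : ∀ r ∈ pCore p (H ⧸ pPrimeCore p H), r * x = x * r) : x ∈ pCore p (H ⧸ pPrimeCore p H) :=
  centralizer_pCore_le_of_isPSolvable (isPSolvable_quotient hs _) pPrimeCore_quotient_pPrimeCore
    (mem_centralizer_iff.2 h)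

theorem sylR (T : Sylow p H) {r : H ⧸ pPrimeCore p H} (hr : r ∈ pCore p (H ⧸ pPrimeCore p H)) :
    ∃ t ∈ (T : Subgroup H), pq p H t = r :=
  pCore_le_sylow (T.mapSurjective (QuotientGroup.mk'_surjective _)) hr

theorem lemA (hs : IsPSolvable p H) (S T : Sylow p H) {a b : H}
    (ha : ∀ s ∈ (S : Subgroup H), s * a = a * s) (hb : ∀ t ∈ (T : Subgroup H), t * b = b * t) :
    a * b * a⁻¹ * b⁻¹ ∈ pPrimeCore p H := by
  have h1 : pq p H a ∈ pCore p (H ⧸ pPrimeCore p H) := cenR hs fun r hr => by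
    obtain ⟨s, hs, rfl⟩ := sylR S hr
    rw [← map_mul, ← map_mul, ha s hs]
  obtain ⟨t, ht, e⟩ := sylR T h1
  rw [← pq_one, map_mul, map_mul, map_mul, map_inv, map_inv, ← e, ← map_mul, hb t ht, map_mul]
  group

theorem lemB (hs : IsPSolvable p H) (T : Sylow p H) {X : Subgroup H}
    (hX : ∀ x ∈ X, ¬ p ∣ orderOf x) (hn : ∀ t ∈ (T : Subgroup H), ∀ x ∈ X, t * x * t⁻¹ ∈ X) :
    X ≤ pPrimeCore p H := by
  intro x hx
  rw [← pq_one]
  refine eq_one_of_mem pCore_isPGroup (cenR hs fun r hr => ?_) (reg_map _ (hX x hx))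
  obtain ⟨t, ht, rfl⟩ := sylR T hr
  have h1 : pq p H (t * x * t⁻¹ * x⁻¹) = 1 := by
    refine eq_one_of_mem pCore_isPGroup ?_ (reg_map _ (hX _ (X.mul_mem (hn t ht x hx) (X.inv_mem hx))))
    have := (inferInstance : (pCore p (H ⧸ pPrimeCore p H)).Normal).conj_mem _ (inv_mem hr) (pq p H x)
    simpa only [map_mul, map_inv, mul_assoc] using mul_mem hr this
  rw [map_mul, map_mul, map_inv, map_inv, mul_inv_eq_one, map_mul, mul_inv_eq_iff_eq_mul] at h1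
  exact h1

/-- A quadratically acting element whose fixed points are fixed by `Y` centralizes `Y`. -/
theorem quad {R Y : Subgroup H} [hR : R.Normal] (pR : IsPGroup p R)
    (cR : ∀ x, (∀ r ∈ R, r * x = x * r) → x ∈ R) (hY : ∀ y ∈ Y, ¬ p ∣ orderOf y) {k : H}
    (hk : ∀ y ∈ Y, k * y * k⁻¹ ∈ Y) (hk' : ∀ y ∈ Y, k⁻¹ * y * k ∈ Y)
    (h1 : ∀ x ∈ R, k * (x * k * x⁻¹) = x * k * x⁻¹ * k)
    (h2 : ∀ r ∈ R, r * k = k * r → ∀ y ∈ Y, r * y = y * r) {y : H} (hy : y ∈ Y) :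
    k * y = y * k := by
  -- `Q c` : `c` lies in `R` and centralizes `Y`
  let Q : Subgroup H := R ⊓ centralizer (Y : Set H)
  have mQ : ∀ {c}, c ∈ Q ↔ c ∈ R ∧ ∀ y ∈ Y, y * c = c * y := fun {c} => by
    simp only [Q, mem_inf, mem_centralizer_iff, SetLike.mem_coe]
  have nQ : ∀ {n c}, (∀ y ∈ Y, n⁻¹ * y * n ∈ Y) → c ∈ Q → n * c * n⁻¹ ∈ Q := fun {n c} hn hc => by
    refine mQ.2 ⟨hR.conj_mem _ (mQ.1 hc).1 n, fun y hy => ?_⟩
    have := (mQ.1 hc).2 _ (hn y hy)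
    calc y * (n * c * n⁻¹) = n * (n⁻¹ * y * n * c) * n⁻¹ := by group
      _ = n * c * n⁻¹ * y := by rw [this]; group
  have s1 : ∀ x ∈ R, x⁻¹ * (k * x * k⁻¹) ∈ Q := fun x hx => by
    have m : x⁻¹ * (k * x * k⁻¹) ∈ R := R.mul_mem (R.inv_mem hx) (hR.conj_mem _ hx k)
    refine mQ.2 ⟨m, fun y hy => (h2 _ m ?_ y hy).symm⟩
    have := h1 _ (R.inv_mem hx)
    calc x⁻¹ * (k * x * k⁻¹) * k = k⁻¹ * (k * (x⁻¹ * k * x⁻¹⁻¹)) := by group
      _ = k⁻¹ * (x⁻¹ * k * x⁻¹⁻¹ * k) := by rw [this]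
      _ = k⁻¹ * (x⁻¹ * k * x⁻¹⁻¹ * k) * k * k⁻¹ := by group
      _ = k⁻¹ * (k * (x⁻¹ * k * x⁻¹⁻¹)) * k * k⁻¹ := by rw [this]
      _ = (x⁻¹ * k * x⁻¹⁻¹ * k) * k⁻¹ := by group
      _ = (k * (x⁻¹ * k * x⁻¹⁻¹)) * k⁻¹ := by rw [this]
      _ = k * (x⁻¹ * (k * x * k⁻¹)) := by group
  have s2 : ∀ x ∈ R, x⁻¹ * (k⁻¹ * x * k) ∈ Q := fun x hx => by
    have := nQ (n := k⁻¹) (by simpa using hk) (Q.inv_mem (s1 x hx))
    convert this using 1; group
  have hg : k * y * k⁻¹ * y⁻¹ ∈ Y := Y.mul_mem (hk y hy) (Y.inv_mem hy)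
  have s3 : ∀ x ∈ R, x⁻¹ * (k * y * k⁻¹ * y⁻¹ * x * (k * y * k⁻¹ * y⁻¹)⁻¹) ∈ Q := fun x hx => by
    have a1 := s2 _ (hR.conj_mem _ hx y⁻¹)
    have a2 := nQ (n := y) (fun z hz => Y.mul_mem (Y.mul_mem (Y.inv_mem hy) hz) hy) a1
    have a3 := nQ (n := k) hk' a2
    convert Q.mul_mem (s1 x hx) a3 using 1; group
  generalize hgd : k * y * k⁻¹ * y⁻¹ = g at hg s3
  have s4 : ∀ x ∈ R, x * g = g * x := fun x hx => by
    obtain ⟨c, hc, e⟩ : ∃ c ∈ Q, g * x * g⁻¹ = x * c := ⟨_, s3 x hx, by group⟩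
    have cg : g * c = c * g := (mQ.1 hc).2 g hg
    have it : ∀ n : ℕ, g ^ n * x * (g ^ n)⁻¹ = x * c ^ n := by
      intro n
      induction n with
      | zero => simp
      | succ n ih =>
        have cn : g * c ^ n = c ^ n * g := (Commute.pow_right cg n)
        calc g ^ (n + 1) * x * (g ^ (n + 1))⁻¹ = g * (g ^ n * x * (g ^ n)⁻¹) * g⁻¹ := by group
          _ = g * x * g⁻¹ * (g * c ^ n * g⁻¹) := by rw [ih]; group
          _ = x * c ^ (n + 1) := by rw [e, cn]; group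
    have c1 : c ^ orderOf g = 1 := by
      have := it (orderOf g)
      rw [pow_orderOf_eq_one, one_mul, inv_one, mul_one] at this
      exact (mul_eq_left.1 this.symm)
    have c2 : c = 1 := eq_one_of_mem pR (mQ.1 hc).1 fun d =>
      hY g hg (d.trans (orderOf_dvd_of_pow_eq_one c1))
    rw [c2, mul_one, mul_inv_eq_iff_eq_mul] at e
    exact e.symm
  have g1 : g = 1 := eq_one_of_mem pR (cR g s4) (hY g hg)
  rw [g1, mul_inv_eq_one, mul_inv_eq_iff_eq_mul] at hgd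
  exact hgd

theorem lemC (hs : IsPSolvable p H) (T : Sylow p H) {X : Subgroup H}
    (hX : ∀ x ∈ X, ¬ p ∣ orderOf x) {k : H} (kT : k ∈ (T : Subgroup H))
    (hk : ∀ y ∈ X, k * y * k⁻¹ ∈ X) (hk' : ∀ y ∈ X, k⁻¹ * y * k ∈ X)
    (h1 : ∀ t ∈ (T : Subgroup H), k * (t * k * t⁻¹) = t * k * t⁻¹ * k)
    (h2 : ∀ t ∈ (T : Subgroup H), t * k = k * t → ∀ x ∈ X, ¬ p ∣ orderOf (t * x * t⁻¹ * x⁻¹))
    {x : H} (hx : x ∈ X) : pq p H k * pq p H x = pq p H x * pq p H k := by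
  refine quad (p := p) (Y := X.map (pq p H)) pCore_isPGroup (fun x => cenR hs) ?_ ?_ ?_ ?_ ?_
    (mem_map_of_mem _ hx)
  · rintro _ ⟨y, hy, rfl⟩; exact reg_map _ (hX y hy)
  · rintro _ ⟨y, hy, rfl⟩; exact ⟨_, hk y hy, by simp only [map_mul, map_inv]⟩
  · rintro _ ⟨y, hy, rfl⟩; exact ⟨_, hk' y hy, by simp only [map_mul, map_inv]⟩
  · intro r hr
    obtain ⟨t, ht, rfl⟩ := sylR T hr
    simpa only [map_mul, map_inv] using congrArg (pq p H) (h1 t ht)
  · rintro r hr e _ ⟨y, hy, rfl⟩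
    obtain ⟨t, ht, rfl⟩ := sylR T hr
    have tk : t * k = k * t := by
      have m : (t * k)⁻¹ * (k * t) ∈ pPrimeCore p H := pq_eq.1 (by simpa only [map_mul] using e)
      have := eq_one_of_mem T.isPGroup' (mul_mem (inv_mem (mul_mem ht kT)) (mul_mem kT ht))
        (reg_core m)
      rwa [inv_mul_eq_one] at this
    have h3 : pq p H (t * y * t⁻¹ * y⁻¹) = 1 := by
      refine eq_one_of_mem pCore_isPGroup ?_ (reg_map _ (h2 t ht tk y hy))
      have := (inferInstance : (pCore p (H ⧸ pPrimeCore p H)).Normal).conj_mem _ (inv_mem hr) (pq p H y)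
      simpa only [map_mul, map_inv, mul_assoc] using mul_mem hr this
    rw [map_mul, map_mul, map_inv, map_inv, mul_inv_eq_one, map_mul, mul_inv_eq_iff_eq_mul] at h3
    exact h3

theorem comm_of_pow {a b : H} (ha : a ^ p = 1) (hc : ¬ p ∣ orderOf (a * b * a⁻¹ * b⁻¹))
    (h : a * (a * b * a⁻¹ * b⁻¹) = a * b * a⁻¹ * b⁻¹ * a) : a * b = b * a := by
  generalize hd : a * b * a⁻¹ * b⁻¹ = c at hc h
  have it : ∀ n : ℕ, a ^ n * b * (a ^ n)⁻¹ = c ^ n * b := by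
    intro n
    induction n with
    | zero => simp
    | succ n ih =>
      have cn : a * c ^ n = c ^ n * a := (Commute.pow_right h n)
      calc a ^ (n + 1) * b * (a ^ (n + 1))⁻¹ = a * (a ^ n * b * (a ^ n)⁻¹) * a⁻¹ := by group
        _ = (a * c ^ n) * b * a⁻¹ := by rw [ih]; group
        _ = c ^ n * (a * b * a⁻¹ * b⁻¹) * b := by rw [cn]; group
        _ = c ^ (n + 1) * b := by rw [hd, pow_succ]
  have := it p
  rw [ha, one_mul, inv_one, mul_one] at this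
  have c1 : c = 1 := eq_one_of (k := 1) (by rw [pow_one]; exact mul_eq_right.1 this.symm) hc
  rwa [c1, mul_inv_eq_one, mul_inv_eq_iff_eq_mul] at hd

theorem closure_comm {s : Set H} (h : ∀ a ∈ s, ∀ b ∈ s, a * b = b * a) :
    ∀ a ∈ closure s, ∀ b ∈ closure s, a * b = b * a := by
  have h1 : closure s ≤ centralizer s := (closure_le _).2 fun b hb => mem_centralizer_iff.2 fun a ha => h a ha b hb
  have h2 : closure s ≤ centralizer (closure s : Set H) := by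
    rw [le_centralizer_iff, closure_le]
    intro a ha
    exact mem_centralizer_iff.2 fun b hb => (mem_centralizer_iff.1 (h1 hb) a ha).symm
  exact fun a ha b hb => mem_centralizer_iff.1 (h2 hb) a ha

theorem closure_pow {s : Set H} (h : ∀ a ∈ s, ∀ b ∈ s, a * b = b * a) (e : ∀ a ∈ s, a ^ p = 1) :
    ∀ a ∈ closure s, a ^ p = 1 := by
  intro a ha
  induction ha using closure_induction with
  | mem a ha => exact e a ha
  | one => exact one_pow p
  | mul a b ha hb iha ihb => rw [Commute.mul_pow (closure_comm h a ha b hb), iha, ihb, one_mul]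
  | inv a _ ih => rw [inv_pow, ih, inv_one]

theorem lemE (T : Sylow p H) {b : H} (hb : b ^ p = 1)
    (h : ∀ g : H, b * (g * b * g⁻¹) * b⁻¹ * (g * b * g⁻¹)⁻¹ ∈ pPrimeCore p H) :
    ∃ t ∈ (T : Subgroup H), t⁻¹ * b ∈ pPrimeCore p H := by
  have c : ∀ g, pq p H b * (g * pq p H b * g⁻¹) = g * pq p H b * g⁻¹ * pq p H b := fun g => by
    obtain ⟨g, rfl⟩ := QuotientGroup.mk'_surjective _ g
    have := pq_one.2 (h g)
    simp only [map_mul, map_inv] at this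
    rwa [mul_inv_eq_one, mul_inv_eq_iff_eq_mul] at this
  have e : pq p H b ^ p = 1 := by rw [← map_pow, hb, map_one]
  have m : pq p H b ∈ pCore p (H ⧸ pPrimeCore p H) := by
    refine le_pCore (N := normalClosure {pq p H b}) (fun x => ⟨1, Subtype.ext ?_⟩)
      (subset_normalClosure rfl)
    rw [pow_one]
    refine closure_pow (fun a ha c' hc' => ?_) (fun a ha => ?_) _ x.2
    · obtain ⟨_, rfl, ha⟩ := Group.mem_conjugatesOfSet_iff.1 ha
      obtain ⟨_, rfl, hc'⟩ := Group.mem_conjugatesOfSet_iff.1 hc'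
      obtain ⟨u, rfl⟩ := isConj_iff.1 ha
      obtain ⟨v, rfl⟩ := isConj_iff.1 hc'
      have := c (u⁻¹ * v)
      calc _ = u * (pq p H b * (u⁻¹ * v * pq p H b * (u⁻¹ * v)⁻¹)) * u⁻¹ := by group
        _ = _ := by rw [this]; group
    · obtain ⟨_, rfl, ha⟩ := Group.mem_conjugatesOfSet_iff.1 ha
      obtain ⟨u, rfl⟩ := isConj_iff.1 ha
      rw [conj_pow, e, mul_one, mul_inv_cancel]
  obtain ⟨t, ht, e⟩ := sylR T m
  exact ⟨t, ht, pq_eq.1 e⟩

/-- An element of the coset `t Y` is `Y`-conjugate to `t v` with `v ∈ C_Y(t)`. -/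
theorem lemD {t g : H} (ht : ∃ k : ℕ, orderOf t = p ^ k) (h : t⁻¹ * g ∈ pPrimeCore p H) :
    ∃ y ∈ pPrimeCore p H, ∃ v ∈ pPrimeCore p H, t * v = v * t ∧ g = y * (t * v) * y⁻¹ := by
  have e : pq p H t = pq p H g := pq_eq.2 h
  have pe : ∃ k : ℕ, orderOf (pq p H g) = p ^ k := by
    obtain ⟨k, hk⟩ := ht
    obtain ⟨j, -, hj⟩ := (Nat.dvd_prime_pow hp.out).1 (hk ▸ orderOf_map_dvd (pq p H) t)
    exact ⟨j, e ▸ hj⟩
  have hv : pReg p g ∈ pPrimeCore p H := by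
    rw [← pq_one, map_pReg hp.out, pReg_of_pElement hp.out pe]
  have hu : pq p H (pPart p g) = pq p H t := by
    rw [map_pPart hp.out, pPart_of_pElement hp.out pe, e]
  let K : Subgroup H := (zpowers (pq p H t)).comap (pq p H)
  have tK : t ∈ K := mem_zpowers _
  have uK : pPart p g ∈ K := by rw [mem_comap, hu]; exact mem_zpowers _
  have pz : ∀ {x : H} (hx : x ∈ K), (∃ k : ℕ, orderOf x = p ^ k) →
      ∃ S : Sylow p K, (⟨x, hx⟩ : K) ∈ (S : Subgroup K) := fun {x} hx ⟨k, hk⟩ => by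
    have : IsPGroup p (zpowers (⟨x, hx⟩ : K)) :=
      IsPGroup.of_card (n := k) (by rw [Nat.card_zpowers, ← Subgroup.orderOf_coe, hk])
    obtain ⟨S, hS⟩ := this.exists_le_sylow
    exact ⟨S, hS (mem_zpowers _)⟩
  obtain ⟨S1, h1⟩ := pz tK ht
  obtain ⟨S2, h2⟩ := pz uK (pPart_pElement hp.out g)
  obtain ⟨c, rfl⟩ := MulAction.exists_smul_eq K S1 S2
  obtain ⟨i, hi⟩ := mem_zpowers_iff.1 (mem_comap.1 c.2)
  have hy : (c : H) * (t ^ i)⁻¹ ∈ pPrimeCore p H := by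
    rw [← pq_one, map_mul, map_inv, map_zpow, hi, mul_inv_cancel]
  rw [Sylow.coe_subgroup_smul, mem_pointwise_smul_iff_inv_smul_mem] at h2
  have h3 : (⟨t, tK⟩ : K)⁻¹ * ((⟨t, tK⟩ : K) ^ i * ((MulAut.conj c)⁻¹ • (⟨_, uK⟩ : K)) *
      ((⟨t, tK⟩ : K) ^ i)⁻¹) ∈ (S1 : Subgroup K) :=
    mul_mem (inv_mem h1) (mul_mem (mul_mem (zpow_mem h1 i) h2) (inv_mem (zpow_mem h1 i)))
  generalize hyd : (c : H) * (t ^ i)⁻¹ = y at hy
  have h4 : t⁻¹ * (y⁻¹ * pPart p g * y) = 1 := by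
    have e1 := eq_one_of_mem S1.isPGroup' h3 (by
      rw [← Subgroup.orderOf_coe]
      refine reg_core (pq_one.1 ?_)
      simp only [coe_mul, coe_inv, coe_zpow, MulAut.smul_def, MulAut.conj_inv_apply, map_mul,
        map_inv, map_zpow, hu, ← hi]
      group)
    have e2 := congrArg Subtype.val e1
    simp only [coe_mul, coe_inv, coe_zpow, MulAut.smul_def, MulAut.conj_inv_apply, coe_one] at e2
    rw [← e2, ← hyd]; group
  have h5 : t = y⁻¹ * pPart p g * y := inv_mul_eq_one.1 h4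
  refine ⟨y, hy, y⁻¹ * pReg p g * y, mul_mem (mul_mem (inv_mem hy) hv) hy, ?_, ?_⟩
  · have := (commute_pPart_pReg (p := p) g).eq
    rw [h5]
    calc _ = y⁻¹ * (pPart p g * pReg p g) * y := by group
      _ = _ := by rw [this]; group
  · rw [h5]
    calc g = pPart p g * pReg p g := (pPart_mul_pReg g).symm
      _ = _ := by group

end CF.Sy2
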