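import Cfsg.Agent.Sy2.A

/-! The weak closure of the `p`-central elements of order `p` when no two Sylow subgroups
generate the group and all proper subgroups are `p`-solvable. -/

set_option autoImplicit false
set_option linter.unusedSectionVars false

namespace CF.Sy2
open Subgroup Cfsg CF.Solv CF.BlockB
open scoped Pointwise

variable {p : ℕ} [hp : Fact p.Prime] {G : Type*} [Group G] [Finite G]

/-- The minimal configuration. -/
structure Hy (p : ℕ) (G : Type*) [Group G] : Prop where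
  pair : ∀ P Q : Sylow p G, (P : Subgroup G) ⊔ Q ≠ ⊤
  prop : ∀ L : Subgroup G, L ≠ ⊤ → IsPSolvable p L
  cen : ∀ x : G, x ≠ 1 → centralizer ({x} : Set G) ≠ ⊤

/-- `O_{p'}(L)` inside `G`. -/
def Oc (p : ℕ) (L : Subgroup G) : Subgroup G := (pPrimeCore p L).map L.subtype

theorem mem_Oc {L : Subgroup G} {x : L} : (x : G) ∈ Oc p L ↔ x ∈ pPrimeCore p L :=
  mem_map_iff_mem L.subtype_injective

theorem Oc_le {L : Subgroup G} : Oc p L ≤ L := map_subtype_le _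

theorem Oc_reg {L : Subgroup G} {y : G} (hy : y ∈ Oc p L) : ¬ p ∣ orderOf y := by
  obtain ⟨y, hy, rfl⟩ := hy
  rw [coe_subtype, Subgroup.orderOf_coe]; exact reg_core hy

theorem Oc_conj {L : Subgroup G} {g y : G} (hg : g ∈ L) (hy : y ∈ Oc p L) :
    g * y * g⁻¹ ∈ Oc p L := by
  obtain ⟨y, hy, rfl⟩ := hy
  exact mem_Oc.2 ((inferInstance : (pPrimeCore p L).Normal).conj_mem y hy ⟨g, hg⟩)

theorem Oc_conj' {L : Subgroup G} {g y : G} (hg : g ∈ L) (hy : y ∈ Oc p L) :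
    g⁻¹ * y * g ∈ Oc p L := by simpa using Oc_conj (L.inv_mem hg) hy

/-- `p`-central elements of order dividing `p`. -/
def Zc (p : ℕ) (a : G) : Prop := a ^ p = 1 ∧ ∃ P : Sylow p G, ∀ s ∈ (P : Subgroup G), s * a = a * s

theorem mem_smul_syl {P : Sylow p G} {g x : G} :
    x ∈ ((g • P : Sylow p G) : Subgroup G) ↔ g⁻¹ * x * g ∈ (P : Subgroup G) := by
  rw [Sylow.coe_subgroup_smul, mem_pointwise_smul_iff_inv_smul_mem]; simp

theorem Zc.conj {a : G} (h : Zc p a) (g : G) : Zc p (g * a * g⁻¹) := by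
  obtain ⟨h1, P, h2⟩ := h
  refine ⟨by rw [conj_pow, h1, mul_one, mul_inv_cancel], g • P, fun s hs => ?_⟩
  have := h2 _ (mem_smul_syl.1 hs)
  calc _ = g * (g⁻¹ * s * g * a) * g⁻¹ := by group
    _ = _ := by rw [this]; group

theorem pz {a : G} (h : a ^ p = 1) : IsPGroup p (zpowers a) := fun x => ⟨1, Subtype.ext (by
  obtain ⟨_, i, rfl⟩ := x
  simp only [pow_one, coe_pow, coe_one]
  rw [← zpow_natCast, ← zpow_mul, mul_comm, zpow_mul, zpow_natCast, h, one_zpow])⟩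

theorem mem_syl {a : G} (h : a ^ p = 1) {P : Sylow p G}
    (c : ∀ s ∈ (P : Subgroup G), s * a = a * s) : a ∈ (P : Subgroup G) := by
  have h1 : IsPGroup p (zpowers a ⊔ P : Subgroup G) :=
    (pz h).to_sup_of_normal_right' P.isPGroup' (zpowers_le.2
      (centralizer_le_normalizer _ (mem_centralizer_iff.2 c)))
  rw [← P.is_maximal' h1 le_sup_right]
  exact mem_sup_left (mem_zpowers a)

theorem Zc.ext {a : G} (h : Zc p a) {D : Subgroup G} (hD : IsPGroup p D)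
    (c : ∀ d ∈ D, d * a = a * d) :
    ∃ P : Sylow p G, D ≤ P ∧ ∀ s ∈ (P : Subgroup G), s * a = a * s := by
  obtain ⟨-, P, h2⟩ := h
  have hP : (P : Subgroup G) ≤ centralizer {a} := fun s hs =>
    mem_centralizer_singleton_iff.2 (h2 s hs)
  obtain ⟨Q, hQ⟩ := (hD.comap_of_injective _ (centralizer {a}).subtype_injective).exists_le_sylow
  obtain ⟨g, rfl⟩ := MulAction.exists_smul_eq (centralizer ({a} : Set G)) (P.subtype hP) Q
  have ga := mem_centralizer_singleton_iff.1 g.2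
  refine ⟨(g : G) • P, fun d hd => ?_, fun s hs => ?_⟩
  · have := mem_smul_syl.1 (hQ (x := ⟨d, mem_centralizer_singleton_iff.2 (c d hd)⟩) hd)
    exact mem_smul_syl.2 this
  · have := h2 _ (mem_smul_syl.1 hs)
    generalize (g : G) = h at ga this
    calc s * a = s * (h * a) * h⁻¹ := by rw [ga]; group
      _ = h * (h⁻¹ * s * h * a) * h⁻¹ := by group
      _ = (h * a) * h⁻¹ * s := by rw [this]; group
      _ = a * s := by rw [ga]; group

theorem Hy.pairO (H : Hy p G) {P Q : Sylow p G} {a b : G} (ha : a ^ p = 1) (hb : b ^ p = 1)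
    (ca : ∀ s ∈ (P : Subgroup G), s * a = a * s) (cb : ∀ s ∈ (Q : Subgroup G), s * b = b * s) :
    a * b * a⁻¹ * b⁻¹ ∈ Oc p ((P : Subgroup G) ⊔ Q) :=
  mem_Oc.2 (lemA (H.prop _ (H.pair P Q)) (P.subtype le_sup_left) (Q.subtype le_sup_right)
    (a := ⟨a, mem_sup_left (mem_syl ha ca)⟩) (b := ⟨b, mem_sup_right (mem_syl hb cb)⟩)
    (fun s hs => Subtype.ext (ca s hs)) fun s hs => Subtype.ext (cb s hs))

theorem Hy.comm (H : Hy p G) {a b : G} (ha : Zc p a) (hb : Zc p b) {D : Subgroup G}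
    (hD : IsPGroup p D) (aD : a ∈ D) (bD : b ∈ D) : a * b = b * a := by
  obtain ⟨ha, P, ca⟩ := ha
  obtain ⟨hb, Q, cb⟩ := hb
  have := eq_one_of_mem hD (mul_mem (mul_mem (mul_mem aD bD) (inv_mem aD)) (inv_mem bD))
    (Oc_reg (H.pairO ha hb ca cb))
  rwa [mul_inv_eq_one, mul_inv_eq_iff_eq_mul] at this

theorem Hy.step2 (H : Hy p G) {L : Subgroup G} (hL : L ≠ ⊤) {a b : L} (ha : Zc p (a : G))
    (hb : Zc p (b : G)) : a * b * a⁻¹ * b⁻¹ ∈ pPrimeCore p L := by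
  have a1 : a ^ p = 1 := Subtype.ext ha.1
  obtain ⟨T, hT⟩ := (pz a1).exists_le_sylow
  have aT : a ∈ (T : Subgroup L) := hT (mem_zpowers a)
  obtain ⟨P, hP, ca⟩ := ha.ext (D := ((T : Subgroup L) ⊓ centralizer {a}).map L.subtype)
    ((T.isPGroup'.to_inf_left).map _) (by
      rintro _ ⟨d, hd, rfl⟩
      exact congrArg Subtype.val (mem_centralizer_singleton_iff.1 hd.2))
  obtain ⟨b1, Q, cb⟩ := hb
  have aM : (a : G) ∈ (P : Subgroup G) ⊔ Q := mem_sup_left (mem_syl ha.1 ca)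
  have hc : a * b * a⁻¹ * b⁻¹ ∈ (Oc p ((P : Subgroup G) ⊔ Q)).subgroupOf L := H.pairO ha.1 b1 ca cb
  have rg : ∀ x ∈ (Oc p ((P : Subgroup G) ⊔ Q)).subgroupOf L, ¬ p ∣ orderOf x := fun x hx => by
    rw [← Subgroup.orderOf_coe]; exact Oc_reg hx
  have key := lemC (H.prop L hL) T rg aT (fun y hy => Oc_conj aM hy) (fun y hy => Oc_conj' aM hy)
    (fun t ht => Subtype.ext (H.comm ha (ha.conj t) (T.isPGroup'.map L.subtype) ⟨a, aT, rfl⟩
      ⟨t * a * t⁻¹, mul_mem (mul_mem ht aT) (inv_mem ht), rfl⟩))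
    (fun t ht c x hx => rg _ (mul_mem (Oc_conj (mem_sup_left
      (hP ⟨t, ⟨ht, mem_centralizer_singleton_iff.2 c⟩, rfl⟩)) hx) (inv_mem hx))) hc
  have r := reg_map (pq p L) (rg _ hc)
  simp only [map_mul, map_inv] at key r
  have := comm_of_pow (by rw [← map_pow, a1, map_one]) r key
  rw [← pq_one]
  simp only [map_mul, map_inv]
  rw [this]; group

/-- The subgroup generated by the `p`-central elements of order `p` of `P`. -/
def Wp (P : Sylow p G) : Subgroup G := closure {a | a ∈ (P : Subgroup G) ∧ Zc p a}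

theorem Wp_le (P : Sylow p G) : Wp P ≤ P := (closure_le _).2 fun _ h => h.1

theorem mem_Wp {P : Sylow p G} {a : G} (h : a ∈ (P : Subgroup G)) (z : Zc p a) : a ∈ Wp P :=
  subset_closure ⟨h, z⟩

theorem Hy.Wcomm (H : Hy p G) (P : Sylow p G) : ∀ a ∈ Wp P, ∀ b ∈ Wp P, a * b = b * a :=
  closure_comm fun _ ha _ hb => H.comm ha.2 hb.2 P.isPGroup' ha.1 hb.1

theorem Hy.Wpow (H : Hy p G) (P : Sylow p G) : ∀ a ∈ Wp P, a ^ p = 1 :=
  closure_pow (fun _ ha _ hb => H.comm ha.2 hb.2 P.isPGroup' ha.1 hb.1) fun _ ha => ha.2.1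

theorem Wp_conj {P : Sylow p G} {b : G} (hb : b ∈ Wp P) (g : G) : g * b * g⁻¹ ∈ Wp (g • P) := by
  induction hb using closure_induction with
  | mem a ha => exact mem_Wp (mem_smul_syl.2 (by simpa [mul_assoc] using ha.1)) (ha.2.conj g)
  | one => simpa using one_mem _
  | mul a b _ _ ha hb => simpa [mul_assoc] using mul_mem ha hb
  | inv a _ ha => simpa [mul_assoc] using inv_mem ha

theorem Wp_mono {P Q : Sylow p G} (h : Wp P ≤ Q) : Wp P ≤ Wp Q :=
  (closure_le _).2 fun _ ha => mem_Wp (h (subset_closure ha)) ha.2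

theorem Oc_mul {L : Subgroup G} {a b c d : G} (hc : c ∈ L) (h : a⁻¹ * b ∈ Oc p L)
    (h' : c⁻¹ * d ∈ Oc p L) : (a * c)⁻¹ * (b * d) ∈ Oc p L := by
  convert mul_mem (Oc_conj' hc h) h' using 1; group

theorem Hy.step3 (H : Hy p G) (P Q : Sylow p G) {b : G} (hb : b ∈ Wp Q) :
    ∃ a ∈ Wp P, a⁻¹ * b ∈ Oc p ((P : Subgroup G) ⊔ Q) := by
  induction hb using closure_induction with
  | mem b hb =>
    obtain ⟨t, ht, e⟩ := lemE (P.subtype (le_sup_left (b := (Q : Subgroup G))))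
      (b := ⟨b, mem_sup_right hb.1⟩) (Subtype.ext hb.2.1)
      fun g => H.step2 (H.pair P Q) hb.2 (hb.2.conj g)
    obtain ⟨k, hk⟩ := pel_of_mem (P.subtype _).isPGroup' ht
    obtain ⟨y, hy, v, hv, c, e2⟩ := lemD ⟨k, hk⟩ e
    have h1 : (t * v) ^ p = 1 := by
      have : (y * (t * v) * y⁻¹) ^ p = 1 := e2 ▸ Subtype.ext hb.2.1
      rw [conj_pow] at this
      simpa using this
    have h2 : v = 1 := by
      refine eq_one_of (k := k + 1) ?_ (reg_core hv)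
      have h3 : (t * v) ^ p ^ (k + 1) = 1 := by rw [pow_succ', pow_mul, h1, one_pow]
      rwa [Commute.mul_pow c, pow_succ, pow_mul, ← hk, pow_orderOf_eq_one, one_pow, one_mul,
        hk, ← pow_succ] at h3
    refine ⟨t, mem_Wp ht ?_, mem_Oc.2 e⟩
    have := hb.2.conj (y : G)⁻¹
    have e3 : b = y * t * (y : G)⁻¹ := by simpa [h2] using congrArg Subtype.val e2
    rw [e3] at this
    simpa [mul_assoc] using this
  | one => exact ⟨1, one_mem _, by simpa using one_mem _⟩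
  | mul b d _ _ hb hd =>
    obtain ⟨a, ha, e⟩ := hb
    obtain ⟨c, hc, e'⟩ := hd
    exact ⟨a * c, mul_mem ha hc, Oc_mul (mem_sup_left (Wp_le P hc)) e e'⟩
  | inv b _ hb =>
    obtain ⟨a, ha, e⟩ := hb
    refine ⟨a⁻¹, inv_mem ha, ?_⟩
    convert Oc_conj (mem_sup_left (Wp_le P ha)) (inv_mem e) using 1; group

theorem uniq {L D : Subgroup G} (hD : IsPGroup p D) (DL : D ≤ L) {a a' b : G} (ha : a ∈ D)
    (ha' : a' ∈ D) (h : a'⁻¹ * b ∈ Oc p L) (r : ¬ p ∣ orderOf (a⁻¹ * b)) : a = a' := by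
  have m : a⁻¹ * a' ∈ D := mul_mem (inv_mem ha) ha'
  have h1 : (⟨_, Oc_le h⟩ : L) ∈ pPrimeCore p L := mem_Oc.1 h
  have r1 : ¬ p ∣ orderOf ((⟨_, DL m⟩ : L) * ⟨_, Oc_le h⟩) := by
    rw [← Subgroup.orderOf_coe]
    simpa [mul_assoc] using r
  have r2 := reg_map (pq p L) r1
  rw [map_mul, pq_one.2 h1, mul_one] at r2
  obtain ⟨k, hk⟩ := hD ⟨_, m⟩
  have h2 : pq p L ⟨_, DL m⟩ = 1 := eq_one_of (k := k) (by
    have hk' : (a⁻¹ * a') ^ p ^ k = 1 := congrArg Subtype.val hk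
    rw [← map_pow, show (⟨_, DL m⟩ : L) ^ p ^ k = 1 from Subtype.ext hk', map_one]) r2
  exact inv_mul_eq_one.1 (eq_one_of_mem hD m (Oc_reg (mem_Oc.2 (pq_one.1 h2))))

theorem Hy.step4 (H : Hy p G) {P Q : Sylow p G} {a b t : G} (ha : a ∈ Wp P) (hb : b ∈ Wp Q)
    (r : ¬ p ∣ orderOf (a⁻¹ * b)) (ht : t ∈ Wp P) (t1 : t ≠ 1) :
    ∃ y, ∃ v ∈ centralizerPPrimeCore p t, t * a⁻¹ * b = y * (t * v) * y⁻¹ := by
  have WL : Wp P ≤ centralizer {t} := fun w hw =>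
    mem_centralizer_singleton_iff.2 (H.Wcomm P w hw t ht)
  obtain ⟨T, hT⟩ := ((P.isPGroup'.to_le (Wp_le P)).comap_of_injective _
    (centralizer {t}).subtype_injective).exists_le_sylow
  obtain ⟨P', hP'⟩ := (T.isPGroup'.map (centralizer ({t} : Set G)).subtype).exists_le_sylow
  have WP : Wp P ≤ P' := fun w hw => hP' ⟨⟨w, WL hw⟩, hT hw, rfl⟩
  obtain ⟨a', ha', e⟩ := H.step3 P' Q hb
  obtain rfl : a = a' := uniq P'.isPGroup' le_sup_left (WP ha) (Wp_le _ ha') e r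
  have tM : t ∈ (P' : Subgroup G) ⊔ Q := mem_sup_left (WP ht)
  obtain ⟨k, hk⟩ := pel_of_mem P'.isPGroup' (WP ht)
  obtain ⟨y, -, v, hv, c, e2⟩ := lemD (p := p) (t := (⟨t, tM⟩ : ↥((P' : Subgroup G) ⊔ Q)))
    (g := ⟨t, tM⟩ * ⟨_, Oc_le e⟩) ⟨k, by rw [← Subgroup.orderOf_coe, hk]⟩
    (by rw [inv_mul_cancel_left]; exact mem_Oc.1 e)
  have vL : (v : G) ∈ centralizer {t} :=
    mem_centralizer_singleton_iff.2 (congrArg Subtype.val c).symm
  refine ⟨y, v, ⟨⟨v, vL⟩, lemB (H.prop _ (H.cen t t1)) T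
    (X := (Oc p ((P' : Subgroup G) ⊔ Q)).subgroupOf _) (fun x hx => ?_) (fun s hs x hx => ?_)
    (mem_Oc.2 hv), rfl⟩, ?_⟩
  · rw [← Subgroup.orderOf_coe]; exact Oc_reg hx
  · exact Oc_conj (mem_sup_left (hP' ⟨s, hs, rfl⟩)) hx
  · simpa [mul_assoc] using congrArg Subtype.val e2

theorem Hy.exists_hom (H : Hy p G) (P : Sylow p G) (g : G) : ∃ e : Wp P →* Wp P,
    ∀ b : Wp P, ((e b : Wp P) : G)⁻¹ * (g * b * g⁻¹) ∈ Oc p ((P : Subgroup G) ⊔ (g • P : Sylow p G)) := by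
  choose f hf e using fun b : Wp P => H.step3 P (g • P) (Wp_conj b.2 g)
  refine ⟨MonoidHom.mk' (fun b => ⟨f b, hf b⟩) fun b c => Subtype.ext ?_, e⟩
  refine uniq (L := (P : Subgroup G) ⊔ (g • P : Sylow p G)) P.isPGroup' le_sup_left
    (Wp_le P (hf _)) (Wp_le P (mul_mem (hf b) (hf c))) ?_ (Oc_reg (e (b * c)))
  convert Oc_mul (mem_sup_left (Wp_le P (hf c))) (e b) (e c) using 2
  all_goals simp [mul_assoc]

end CF.Sy2
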